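import Cfsg.Agent.H527.RC.FHB
import Cfsg.Agent.H158.Cls7

/-!
# S4191: `Core` from `CorePrim`, `Col` and `ColB` (task 4362)
-/

set_option autoImplicit false

namespace Cfsg.Agent.H757.RC

open scoped Pointwise commutatorElement
open Cfsg.Agent.H527.RC
open Cfsg.Agent.H158.Cls7 (Sys)

universe u

/-! ### `p`-complements -/

section LPs

variable {p : ℕ} {H : Type u} [Group H] {L : Subgroup H}

theorem lp_subgroupOf [Finite H] (h : LP p L) (X : Subgroup H) : LP p (L.subgroupOf X) := by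
  have hn := h.normal
  refine ⟨inferInstance, ?_, ?_⟩
  · intro h1
    apply h.cop
    refine h1.trans ?_
    have h3 : Nat.card (L.subgroupOf X) = Nat.card (L ⊓ X : Subgroup H) := by
      rw [← Subgroup.subgroupOf_map_subtype]
      exact (Nat.card_congr ((L.subgroupOf X).equivMapOfInjective X.subtype X.subtype_injective).toEquiv)
    rw [h3]
    exact Subgroup.card_dvd_of_le inf_le_left
  · intro x
    obtain ⟨k, hk⟩ := h.isP x
    exact ⟨k, by rw [Subgroup.mem_subgroupOf]; simpa using hk⟩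

theorem lp_map [Finite H] {H' : Type u} [Group H'] (h : LP p L) (f : H →* H') (hf : Function.Surjective f) :
    LP p (L.map f) := by
  have hn := h.normal
  refine ⟨Subgroup.Normal.map hn f hf, ?_, ?_⟩
  · intro h1
    exact h.cop (h1.trans (Subgroup.card_map_dvd _ _))
  · intro x
    obtain ⟨y, rfl⟩ := hf x
    obtain ⟨k, hk⟩ := h.isP y
    exact ⟨k, by rw [← map_pow]; exact ⟨_, hk, rfl⟩⟩

theorem pel_map {H' : Type u} [Group H'] {y : H} (hy : PEl p y) (f : H →* H') : PEl p (f y) := by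
  obtain ⟨k, hk⟩ := hy
  exact ⟨k, by rw [← map_pow, hk, map_one]⟩

theorem comm_comm [Finite H] (hp : p.Prime) (h : LP p L) {y : H} (hy : PEl p y) :
    ⁅⁅L, Subgroup.zpowers y⁆, Subgroup.zpowers y⁆ = ⁅L, Subgroup.zpowers y⁆ := by
  have hn := h.normal
  apply Lib.CoprimeCommutator.commutator_commutator_eq
  · rw [Subgroup.normalizer_eq_top]
    exact le_top
  · obtain ⟨k, hk⟩ := hy
    rw [Nat.card_zpowers]
    apply Nat.Coprime.coprime_dvd_left (orderOf_dvd_of_pow_eq_one hk)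
    exact Nat.Coprime.pow_left k ((Nat.Prime.coprime_iff_not_dvd hp).2 h.cop)

end LPs

/-! ### permutations of colours -/

theorem le_choose {a k : ℕ} (ha : 1 ≤ a) (hak : a < k) : k ≤ k.choose a := by
  induction k with
  | zero => omega
  | succ k ih =>
    rcases Nat.lt_or_ge a k with h | h
    · obtain ⟨b, rfl⟩ : ∃ b, a = b + 1 := ⟨a - 1, by omega⟩
      rw [Nat.choose_succ_succ']
      have h1 := ih h
      have h2 : 0 < k.choose b := Nat.choose_pos (by omega)
      omega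
    · obtain rfl : a = k := by omega
      rw [Nat.choose_succ_self_right]

theorem exists_perms {k : ℕ} (s : Fin k → ℕ) {i j : Fin k} (hij : s i ≠ s j) :
    ∃ σ : Fin k → Equiv.Perm (Fin k), ∀ a b, (∀ x, s (σ a x) = s (σ b x)) → a = b := by
  classical
  let A : Finset (Fin k) := Finset.univ.filter fun x => s x = s i
  have hmemA : ∀ x, x ∈ A ↔ s x = s i := fun x => by simp [A]
  have hiA : i ∈ A := (hmemA i).2 rfl
  have hjA : j ∉ A := fun h => hij ((hmemA j).1 h).symm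
  have h1 : 1 ≤ A.card := Finset.card_pos.2 ⟨i, hiA⟩
  have h2 : A.card < k := by
    have := Finset.card_lt_univ_of_notMem hjA
    rwa [Fintype.card_fin] at this
  have h3 : Fintype.card (Fin k) ≤
      Fintype.card {B // B ∈ Finset.powersetCard A.card (Finset.univ : Finset (Fin k))} := by
    rw [Fintype.card_coe, Finset.card_powersetCard, Finset.card_univ, Fintype.card_fin]
    exact le_choose h1 h2
  obtain ⟨e⟩ := Function.Embedding.nonempty_of_card_le h3
  have h4 : ∀ a : Fin k, ∃ σ : Equiv.Perm (Fin k), ∀ x, x ∈ (e a : Finset (Fin k)) ↔ σ x ∈ A := by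
    intro a
    have h5 : (e a : Finset (Fin k)).card = A.card := (Finset.mem_powersetCard.1 (e a).2).2
    let ε : {x // x ∈ (e a : Finset (Fin k))} ≃ {x // x ∈ A} := Finset.equivOfCardEq h5
    refine ⟨ε.extendSubtype, fun x => ⟨fun hx => ε.extendSubtype_mem x hx, fun hx => ?_⟩⟩
    by_contra hx'
    exact ε.extendSubtype_not_mem x hx' hx
  choose σ hσ using h4
  refine ⟨σ, fun a b hab => ?_⟩
  apply e.injective
  apply Subtype.ext
  ext x
  rw [hσ a x, hσ b x, hmemA, hmemA, hab x]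

/-! ### frames -/

/-- A system of imprimitivity with a transversal in `L`. -/
structure Fr (H W Δ : Type u) [Group H] [AddCommGroup W] [DistribMulAction H W] [Fintype Δ] [MulAction H Δ]
    (L : Subgroup H) extends Sys H W Δ where
  o : Δ
  t : Δ → H
  ht : ∀ i, t i • o = i
  htL : ∀ i, t i ∈ L

namespace Fr

variable {H W Δ : Type u} [Group H] [AddCommGroup W] [DistribMulAction H W] [Fintype Δ] [MulAction H Δ]
  {L : Subgroup H} (F : Fr H W Δ L)

/-- the stabilizer of the base point -/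
abbrev X : Subgroup H := MulAction.stabilizer H F.o

/-- the first component -/
def V : AddSubgroup W := (F.π F.o).range

theorem mem_V_iff (v : W) : v ∈ F.V ↔ F.π F.o v = v := by
  constructor
  · rintro ⟨w, rfl⟩
    exact F.proj _ w
  · intro h
    exact ⟨v, h⟩

theorem smul_mem {x : H} (hx : x ∈ F.X) {v : W} (hv : v ∈ F.V) : x • v ∈ F.V := by
  obtain ⟨w, rfl⟩ := hv
  rw [F.eqv, MulAction.mem_stabilizer_iff.1 hx]
  exact ⟨_, rfl⟩

instance act : DistribMulAction F.X F.V where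
  smul x v := ⟨(x : H) • (v : W), F.smul_mem x.2 v.2⟩
  one_smul v := Subtype.ext (one_smul H (v : W))
  mul_smul x y v := Subtype.ext (mul_smul (x : H) (y : H) (v : W))
  smul_zero x := Subtype.ext (smul_zero (x : H))
  smul_add x v w := Subtype.ext (smul_add (x : H) (v : W) (w : W))

theorem act_coe (x : F.X) (v : F.V) : ((x • v : F.V) : W) = (x : H) • (v : W) := rfl

theorem inv_smul_mem (i : Δ) (w : W) : (F.t i)⁻¹ • F.π i w ∈ F.V := by
  rw [F.eqv]
  have h1 : (F.t i)⁻¹ • i = F.o := by rw [inv_smul_eq_iff, F.ht]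
  rw [h1]
  exact ⟨_, rfl⟩

/-- the component of a vector -/
def cp (i : Δ) (w : W) : F.V := ⟨(F.t i)⁻¹ • F.π i w, F.inv_smul_mem i w⟩

theorem smul_V (i : Δ) (v : F.V) : F.t i • (v : W) = F.π i (F.t i • (v : W)) := by
  have h1 := F.eqv (F.t i) F.o v
  rw [F.ht, (F.mem_V_iff _).1 v.2] at h1
  exact h1

/-- the vector with given components -/
def comb (φ : Δ → F.V) : W := ∑ i, F.t i • (φ i : W)

theorem π_comb (φ : Δ → F.V) (j : Δ) : F.π j (F.comb φ) = F.t j • (φ j : W) := by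
  classical
  unfold comb
  rw [map_sum, Finset.sum_eq_single j]
  · exact (F.smul_V j (φ j)).symm
  · intro i _ hij
    rw [F.smul_V i (φ i)]
    exact F.orth _ _ _ (Ne.symm hij)
  · intro h; exact absurd (Finset.mem_univ j) h

theorem cp_comb (φ : Δ → F.V) (j : Δ) : F.cp j (F.comb φ) = φ j := by
  apply Subtype.ext
  show (F.t j)⁻¹ • F.π j (F.comb φ) = φ j
  rw [F.π_comb, inv_smul_smul]

theorem lam_mem (h : H) (i : Δ) : (F.t (h • i))⁻¹ * h * F.t i ∈ F.X := by
  rw [MulAction.mem_stabilizer_iff, mul_smul, mul_smul, F.ht, inv_smul_eq_iff, F.ht]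

/-- the element of the stabilizer -/
def lam (h : H) (i : Δ) : F.X := ⟨(F.t (h • i))⁻¹ * h * F.t i, F.lam_mem h i⟩

theorem lam_smul_cp (h : H) (i : Δ) (w : W) : F.lam h i • F.cp i w = F.cp (h • i) (h • w) := by
  apply Subtype.ext
  show ((F.t (h • i))⁻¹ * h * F.t i) • ((F.t i)⁻¹ • F.π i w) = (F.t (h • i))⁻¹ • F.π (h • i) (h • w)
  rw [mul_smul, mul_smul, smul_inv_smul, F.eqv]

theorem lam_smul_of_eq {h : H} {φ φ' : Δ → F.V} (e : h • F.comb φ = F.comb φ') (i : Δ) :
    F.lam h i • φ i = φ' (h • i) := by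
  have h1 := F.lam_smul_cp h i (F.comb φ)
  rwa [e, F.cp_comb, F.cp_comb] at h1

theorem lam_memL {h : H} (hh : h ∈ L) (i : Δ) : F.lam h i ∈ L.subgroupOf F.X := by
  rw [Subgroup.mem_subgroupOf]
  exact mul_mem (mul_mem (inv_mem (F.htL _)) hh) (F.htL _)

theorem eq_of_cp {w w' : W} (h : ∀ i, F.cp i w = F.cp i w') : w = w' := by
  rw [← F.sum w, ← F.sum w']
  apply Finset.sum_congr rfl
  intro i _
  have h1 := congrArg Subtype.val (h i)
  exact smul_left_cancel _ h1

theorem cp_zero (i : Δ) : F.cp i 0 = 0 := by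
  apply Subtype.ext
  show (F.t i)⁻¹ • F.π i 0 = 0
  rw [map_zero, smul_zero]

theorem cp_add (i : Δ) (a b : W) : F.cp i (a + b) = F.cp i a + F.cp i b := by
  apply Subtype.ext
  show (F.t i)⁻¹ • F.π i (a + b) = (F.t i)⁻¹ • F.π i a + (F.t i)⁻¹ • F.π i b
  rw [map_add, smul_add]

theorem cp_neg (i : Δ) (a : W) : F.cp i (-a) = -F.cp i a := by
  apply Subtype.ext
  show (F.t i)⁻¹ • F.π i (-a) = -((F.t i)⁻¹ • F.π i a)
  rw [map_neg, smul_neg]

theorem irr (hirr : ∀ Z : AddSubgroup W, (∀ g ∈ L, ∀ w ∈ Z, g • w ∈ Z) → Z = ⊥ ∨ Z = ⊤) (Z : AddSubgroup F.V)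
    (hZ : ∀ g ∈ L.subgroupOf F.X, ∀ v ∈ Z, g • v ∈ Z) : Z = ⊥ ∨ Z = ⊤ := by
  let Z' : AddSubgroup W := {
    carrier := {w | ∀ i, F.cp i w ∈ Z}
    zero_mem' := by
      intro i
      rw [F.cp_zero]
      exact zero_mem _
    add_mem' := by
      intro a b ha hb i
      rw [F.cp_add]
      exact add_mem (ha i) (hb i)
    neg_mem' := by
      intro a ha i
      rw [F.cp_neg]
      exact neg_mem (ha i) }
  have hinv : ∀ g ∈ L, ∀ w ∈ Z', g • w ∈ Z' := by
    intro g hg w hw j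
    have h1 := F.lam_smul_cp g (g⁻¹ • j) w
    rw [smul_inv_smul] at h1
    rw [← h1]
    exact hZ _ (F.lam_memL hg _) _ (hw _)
  rcases hirr Z' hinv with h | h
  · left
    rw [eq_bot_iff]
    intro v hv
    have h1 : F.comb (fun _ => v) ∈ Z' := by
      intro i
      rw [F.cp_comb]
      exact hv
    rw [h, AddSubgroup.mem_bot] at h1
    have h2 := F.cp_comb (fun _ => v) F.o
    rw [h1, F.cp_zero] at h2
    exact h2.symm
  · right
    rw [eq_top_iff]
    intro v _
    have h1 : F.comb (fun _ => v) ∈ Z' := by rw [h]; trivial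
    have h2 := h1 F.o
    rwa [F.cp_comb] at h2

/-! #### the group on the first component -/

/-- the group induced on the first component -/
abbrev Hh : Subgroup (Equiv.Perm F.V) := (MulAction.toPermHom F.X F.V).range

/-- the restriction map -/
def rs : F.X →* F.Hh := (MulAction.toPermHom F.X F.V).rangeRestrict

theorem rs_surj : Function.Surjective F.rs := (MulAction.toPermHom F.X F.V).rangeRestrict_surjective

theorem rs_apply (x : F.X) (v : F.V) : (F.rs x) • v = x • v := rfl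

instance actHh : DistribMulAction F.Hh F.V where
  smul_zero g := by
    obtain ⟨x, rfl⟩ := F.rs_surj g
    rw [F.rs_apply, smul_zero]
  smul_add g v w := by
    obtain ⟨x, rfl⟩ := F.rs_surj g
    rw [F.rs_apply, F.rs_apply, F.rs_apply, smul_add]

theorem rs_smul (x : F.X) (v : F.V) : (F.rs x) • v = x • v := rfl

theorem conj_mem {x : H} (hx : ∀ i : Δ, x • i = i) (i : Δ) : (F.t i)⁻¹ * x * F.t i ∈ F.X := by
  rw [MulAction.mem_stabilizer_iff, mul_smul, mul_smul, F.ht, hx, inv_smul_eq_iff, F.ht]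

theorem lam_of_fix {x : H} (hx : ∀ i : Δ, x • i = i) (i : Δ) :
    F.lam x i = ⟨(F.t i)⁻¹ * x * F.t i, F.conj_mem hx i⟩ := by
  apply Subtype.ext
  show (F.t (x • i))⁻¹ * x * F.t i = (F.t i)⁻¹ * x * F.t i
  rw [hx]

theorem eq_one_of_comp (hf : ∀ h : H, (∀ w : W, h • w = w) → h = 1) {x : H} (hx : ∀ i : Δ, x • i = i)
    (h : ∀ i, F.rs (F.lam x i) = 1) : x = 1 := by
  apply hf
  intro w
  apply F.eq_of_cp
  intro i
  have h1 := F.lam_smul_cp x i w
  rw [← F.rs_smul, h i, one_smul, hx] at h1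
  exact h1.symm

theorem lam_mul {x y : H} (hx : ∀ i : Δ, x • i = i) (hy : ∀ i : Δ, y • i = i) (i : Δ) :
    F.lam (x * y) i = F.lam x i * F.lam y i := by
  have hxy : ∀ i : Δ, (x * y) • i = i := fun i => by rw [mul_smul, hy, hx]
  rw [F.lam_of_fix hx, F.lam_of_fix hy, F.lam_of_fix hxy]
  apply Subtype.ext
  show (F.t i)⁻¹ * (x * y) * F.t i = ((F.t i)⁻¹ * x * F.t i) * ((F.t i)⁻¹ * y * F.t i)
  group

theorem fh_of_comp {a : ℕ} (hf : ∀ h : H, (∀ w : W, h • w = w) → h = 1) (Y : Subgroup H)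
    (hY : ∀ x ∈ Y, ∀ i : Δ, x • i = i) (Z : Δ → Subgroup F.Hh) (hZ : ∀ x ∈ Y, ∀ i, F.rs (F.lam x i) ∈ Z i)
    (h : ∀ i, FH a (Z i)) : FH a Y := by
  let Φ : ∀ i, Y →* Z i := fun i => {
    toFun := fun x => ⟨F.rs (F.lam x i), hZ x x.2 i⟩
    map_one' := by
      apply Subtype.ext
      show F.rs (F.lam ((1 : H)) i) = 1
      have h1 : F.lam (1 : H) i = 1 := by
        apply Subtype.ext
        show (F.t ((1 : H) • i))⁻¹ * 1 * F.t i = 1
        rw [one_smul, mul_one, inv_mul_cancel]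
      rw [h1, map_one]
    map_mul' := by
      intro x y
      apply Subtype.ext
      show F.rs (F.lam ((x : H) * (y : H)) i) = F.rs (F.lam (x : H) i) * F.rs (F.lam (y : H) i)
      rw [F.lam_mul (hY x x.2) (hY y y.2), map_mul] }
  refine FH.of_family (Hs := fun i => Z i) Φ ?_ h
  intro x hx
  apply Subtype.ext
  apply F.eq_one_of_comp hf (hY x x.2)
  intro i
  exact congrArg Subtype.val (hx i)

/-! #### commutators -/

/-- the kernel on the blocks -/
abbrev N0 (_ : Fr H W Δ L) : Subgroup H := (MulAction.toPermHom H Δ).ker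

theorem mem_N0 {x : H} : x ∈ F.N0 ↔ ∀ i : Δ, x • i = i := by
  rw [MonoidHom.mem_ker]
  constructor
  · intro h i
    exact congrArg (fun e : Equiv.Perm Δ => e i) h
  · intro h
    ext i
    exact h i

/-- the image of `L` on the first component -/
abbrev L1 : Subgroup F.Hh := (L.subgroupOf F.X).map F.rs

/-- restriction to the component `i` -/
def th (i : Δ) : F.N0 →* F.Hh where
  toFun x := F.rs (F.lam x i)
  map_one' := by
    have h1 : F.lam (1 : H) i = 1 := by
      apply Subtype.ext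
      show (F.t ((1 : H) • i))⁻¹ * 1 * F.t i = 1
      rw [one_smul, mul_one, inv_mul_cancel]
    show F.rs (F.lam (1 : H) i) = 1
    rw [h1, map_one]
  map_mul' x y := by
    show F.rs (F.lam ((x : H) * (y : H)) i) = F.rs (F.lam (x : H) i) * F.rs (F.lam (y : H) i)
    rw [F.lam_mul (F.mem_N0.1 x.2) (F.mem_N0.1 y.2), map_mul]

theorem th_apply (i : Δ) (x : F.N0) : F.th i x = F.rs (F.lam x i) := rfl

theorem th_memL {x : F.N0} (hx : (x : H) ∈ L) (i : Δ) : F.th i x ∈ F.L1 := ⟨_, F.lam_memL hx i, rfl⟩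

theorem comm_le_N0 {y : H} (hy : y ∈ F.N0) : ⁅L, Subgroup.zpowers y⁆ ≤ F.N0 := by
  apply Subgroup.commutator_le.2
  intro l _ z hz
  have h1 : z ∈ F.N0 := (Subgroup.zpowers_le.2 hy) hz
  have h2 : F.N0.Normal := inferInstance
  rw [commutatorElement_def]
  exact mul_mem (h2.conj_mem z h1 l) (inv_mem h1)

theorem fh_fix [Finite H] {p a : ℕ} (hp : p.Prime) (hL : LP p L) (hf : ∀ h : H, (∀ w : W, h • w = w) → h = 1) {y : H}
    (hyp : PEl p y) (hy : ∀ i : Δ, y • i = i)
    (h : ∀ i, FH a (⁅F.L1, Subgroup.zpowers (F.rs (F.lam y i))⁆ : Subgroup F.Hh)) :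
    FH a (⁅L, Subgroup.zpowers y⁆ : Subgroup H) := by
  have hLn := hL.normal
  have hyN : y ∈ F.N0 := F.mem_N0.2 hy
  have hle := F.comm_le_N0 hyN
  have hleL : ⁅L, Subgroup.zpowers y⁆ ≤ L := Subgroup.commutator_le_left _ _
  apply F.fh_of_comp hf _ (fun x hx => F.mem_N0.1 (hle hx)) (fun i => ⁅F.L1, Subgroup.zpowers (F.rs (F.lam y i))⁆) ?_ h
  intro x hx i
  rw [← comm_comm hp hL hyp] at hx
  have key : ⁅⁅L, Subgroup.zpowers y⁆, Subgroup.zpowers y⁆ ≤
      (Subgroup.comap (F.th i) ⁅F.L1, Subgroup.zpowers (F.rs (F.lam y i))⁆).map F.N0.subtype := by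
    rw [Subgroup.commutator_le]
    intro l hl z hz
    have hlN : l ∈ F.N0 := hle hl
    have hlL : l ∈ L := hleL hl
    have hzN : z ∈ F.N0 := (Subgroup.zpowers_le.2 hyN) hz
    refine ⟨⁅(⟨l, hlN⟩ : F.N0), (⟨z, hzN⟩ : F.N0)⁆, ?_, rfl⟩
    rw [SetLike.mem_coe, Subgroup.mem_comap, map_commutatorElement]
    apply Subgroup.commutator_mem_commutator (F.th_memL hlL i)
    obtain ⟨n, rfl⟩ := hz
    have h1 : (⟨(fun n : ℤ => y ^ n) n, hzN⟩ : F.N0) = (⟨y, hyN⟩ : F.N0) ^ n := rfl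
    rw [h1, map_zpow]
    exact ⟨n, rfl⟩
  obtain ⟨x', hx', rfl⟩ := key hx
  exact hx'

theorem fh_fix' [Finite H] {p a : ℕ} (hp : p.Prime) (hL : LP p L) (hf : ∀ h : H, (∀ w : W, h • w = w) → h = 1) {y : H}
    (hyp : PEl p y) (hy : ∀ i : Δ, y • i = i) (h : FH a F.L1) :
    FH a (⁅L, Subgroup.zpowers y⁆ : Subgroup H) := by
  have hLn := hL.normal
  have hLn1 : (L.subgroupOf F.X).Normal := inferInstance
  have hLn2 : F.L1.Normal := Subgroup.Normal.map hLn1 _ F.rs_surj
  exact F.fh_fix hp hL hf hyp hy (fun i => FH.of_le (Subgroup.commutator_le_left _ _) h)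

/-- the group on the blocks -/
abbrev Hb (_ : Fr H W Δ L) : Subgroup (Equiv.Perm Δ) := (MulAction.toPermHom H Δ).range

/-- the action on the blocks -/
def rb : H →* F.Hb := (MulAction.toPermHom H Δ).rangeRestrict

theorem rb_surj : Function.Surjective F.rb := (MulAction.toPermHom H Δ).rangeRestrict_surjective

theorem rb_smul (x : H) (i : Δ) : F.rb x • i = x • i := rfl

theorem fh_ext' [Finite H] {p a b : ℕ} (hL : LP p L) (hf : ∀ h : H, (∀ w : W, h • w = w) → h = 1)
    {y : H} (h : FH a F.L1)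
    (hb : FH b (⁅L.map F.rb, Subgroup.zpowers (F.rb y)⁆ : Subgroup F.Hb)) :
    FH (a + b) (⁅L, Subgroup.zpowers y⁆ : Subgroup H) := by
  have hLn := hL.normal
  have hleL : ⁅L, Subgroup.zpowers y⁆ ≤ L := Subgroup.commutator_le_left _ _
  have h1 : (⁅L, Subgroup.zpowers y⁆ : Subgroup H).map F.rb = ⁅L.map F.rb, Subgroup.zpowers (F.rb y)⁆ := by
    rw [Subgroup.map_commutator, MonoidHom.map_zpowers]
  let f : (⁅L, Subgroup.zpowers y⁆ : Subgroup H) →* (⁅L.map F.rb, Subgroup.zpowers (F.rb y)⁆ : Subgroup F.Hb) :=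
    { toFun := fun x => ⟨F.rb x, by rw [← h1]; exact ⟨x, x.2, rfl⟩⟩
      map_one' := Subtype.ext (map_one F.rb)
      map_mul' := fun x z => Subtype.ext (map_mul F.rb (x : H) (z : H)) }
  refine FH.of_hom f ?_ (hb.subgroup _)
  have h2 : FH a ((⁅L, Subgroup.zpowers y⁆ ⊓ F.N0 : Subgroup H)) := by
    refine F.fh_of_comp hf (⁅L, Subgroup.zpowers y⁆ ⊓ F.N0 : Subgroup H) (fun x hx => F.mem_N0.1 hx.2) (fun _ => F.L1) ?_
      (fun _ => h)
    intro x hx i
    exact F.th_memL (x := ⟨x, hx.2⟩) (hleL hx.1) i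
  let g : f.ker →* (⁅L, Subgroup.zpowers y⁆ ⊓ F.N0 : Subgroup H) :=
    { toFun := fun x => ⟨(x : (⁅L, Subgroup.zpowers y⁆ : Subgroup H)), x.1.2, by
        refine F.mem_N0.2 ?_
        intro i
        have h3 : f x = 1 := x.2
        have h4 : F.rb (x.1 : H) = 1 := congrArg Subtype.val h3
        rw [← F.rb_smul, h4, one_smul]⟩
      map_one' := rfl
      map_mul' := fun _ _ => rfl }
  refine FH.of_injective g ?_ h2
  intro x z hxz
  apply Subtype.ext
  apply Subtype.ext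
  have h5 : (g x : H) = g z := by rw [hxz]
  exact h5

/-! #### orbits -/

theorem pel_rs {p : ℕ} {y : H} (hyp : PEl p y) (hy : ∀ i : Δ, y • i = i) (i : Δ) : PEl p (F.rs (F.lam y i)) := by
  have h1 : PEl p (⟨y, F.mem_N0.2 hy⟩ : F.N0) := by
    obtain ⟨k, hk⟩ := hyp
    exact ⟨k, Subtype.ext hk⟩
  exact pel_map h1 (F.th i)

theorem orbs_a [Finite H] {p t k : ℕ} (hp : p.Prime) (hL : LP p L) (hf : ∀ h : H, (∀ w : W, h • w = w) → h = 1)
    (hcol : ∃ κ : Δ → Fin k, Rig p H κ ∧ ∃ i j, Nat.card {δ // κ δ = i} ≠ Nat.card {δ // κ δ = j})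
    (ho : Orbs F.Hh k (Gd (V := F.V) p t F.L1)) : Orbs H k (Gd (V := W) p t L) := by
  obtain ⟨κ, hκ, i, j, hij⟩ := hcol
  obtain ⟨f, hfg, hfo⟩ := ho
  obtain ⟨σ, hσ⟩ := exists_perms (fun x => Nat.card {δ // κ δ = x}) hij
  let c : Fin k → Δ → Fin k := fun a δ => (σ a).symm (κ δ)
  have key : ∀ (a b : Fin k) (h : H), h • F.comb (fun i => f (c a i)) = F.comb (fun i => f (c b i)) →
      ∀ i, c a i = c b (h • i) := by
    intro a b h e i
    have h1 := F.lam_smul_of_eq e i
    rw [← F.rs_smul] at h1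
    exact hfo _ _ _ h1
  refine ⟨fun a => F.comb (fun i => f (c a i)), ?_, ?_⟩
  · intro a y hy hfix
    have h1 := key a a y hfix
    have h2 : ∀ i : Δ, y • i = i := hκ y hy (fun i => (σ a).symm.injective (h1 i).symm)
    apply F.fh_fix hp hL hf hy h2
    intro i
    apply hfg (c a i) _ (F.pel_rs hy h2 i)
    have h3 := F.lam_smul_of_eq hfix i
    rw [h2 i] at h3
    exact h3
  · intro a b h e
    have h1 := key a b h e
    apply hσ
    intro x
    have h2 : ∀ (a : Fin k) (δ : Δ), κ δ = σ a x ↔ c a δ = x := by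
      intro a δ
      show κ δ = σ a x ↔ (σ a).symm (κ δ) = x
      rw [Equiv.symm_apply_eq]
    apply Nat.card_congr
    refine ⟨fun δ => ⟨h • δ.1, ?_⟩, fun δ => ⟨h⁻¹ • δ.1, ?_⟩, ?_, ?_⟩
    · rw [h2, ← h1, ← h2]
      exact δ.2
    · rw [h2, h1, smul_inv_smul, ← h2]
      exact δ.2
    · intro δ
      exact Subtype.ext (inv_smul_smul h δ.1)
    · intro δ
      exact Subtype.ext (smul_inv_smul h δ.1)

open Classical in
/-- the vector with given support -/
noncomputable def sv (v : F.V) (Γ : Set Δ) : W := F.comb (fun i => if i ∈ Γ then v else 0)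

theorem sv_eq {v : F.V} (hv : v ≠ 0) {Γ Γ' : Set Δ} {h : H} (e : h • F.sv v Γ = F.sv v Γ') (i : Δ) :
    i ∈ Γ ↔ h • i ∈ Γ' := by
  have h1 := F.lam_smul_of_eq e i
  by_cases h2 : i ∈ Γ <;> by_cases h3 : h • i ∈ Γ'
  · simp [h2, h3]
  · rw [if_pos h2, if_neg h3] at h1
    exact absurd (by rwa [smul_eq_zero_iff_eq] at h1) hv
  · rw [if_neg h2, if_pos h3, smul_zero] at h1
    exact absurd h1.symm hv
  · simp [h2, h3]

omit [Fintype Δ] in
theorem ncard_eq {Γ Γ' : Set Δ} {h : H} (e : ∀ i, i ∈ Γ ↔ h • i ∈ Γ') : Γ.ncard = Γ'.ncard := by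
  have h1 : Γ' = (fun i => h • i) '' Γ := by
    ext i
    constructor
    · intro hi
      refine ⟨h⁻¹ • i, ?_, smul_inv_smul h i⟩
      rw [e, smul_inv_smul]
      exact hi
    · rintro ⟨j, hj, rfl⟩
      exact (e j).1 hj
  rw [h1, Set.ncard_image_of_injective _ (MulAction.injective h)]

theorem orbs_b1 {p t k : ℕ} [Nontrivial F.V] (hk : k ≤ Nat.card Δ + 1)
    (hall : ∀ y : H, PEl p y → FH t (⁅L, Subgroup.zpowers y⁆ : Subgroup H)) : Orbs H k (Gd (V := W) p t L) := by
  classical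
  obtain ⟨v, hv⟩ := exists_ne (0 : F.V)
  have h1 : ∀ j : Fin k, ∃ Γ : Finset Δ, Γ.card = (j : ℕ) := by
    intro j
    obtain ⟨Γ, _, hΓ⟩ := Finset.exists_subset_card_eq (s := (Finset.univ : Finset Δ)) (n := (j : ℕ)) (by
      rw [Finset.card_univ, ← Nat.card_eq_fintype_card]
      have := j.2
      omega)
    exact ⟨Γ, hΓ⟩
  choose Γ hΓ using h1
  refine ⟨fun j => F.sv v (Γ j), fun j y hy _ => hall y hy, ?_⟩
  intro a b h e
  have h2 := ncard_eq (F.sv_eq hv e)
  rw [Set.ncard_coe_finset, Set.ncard_coe_finset, hΓ, hΓ] at h2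
  exact Fin.ext h2

theorem orbs_b2 {p t k : ℕ} [Nontrivial F.V]
    (hfix : ∀ y : H, PEl p y → (∀ i : Δ, y • i = i) → FH t (⁅L, Subgroup.zpowers y⁆ : Subgroup H))
    (hΓ : ∃ Γ : Fin k → Set Δ, (∀ i, Rig p F.Hb (fun δ => δ ∈ Γ i)) ∧ ∀ i j, (Γ i).ncard = (Γ j).ncard → i = j) :
    Orbs H k (Gd (V := W) p t L) := by
  obtain ⟨v, hv⟩ := exists_ne (0 : F.V)
  obtain ⟨Γ, h1, h2⟩ := hΓ
  refine ⟨fun j => F.sv v (Γ j), ?_, ?_⟩
  · intro j y hy hyfix
    apply hfix y hy
    have h3 := F.sv_eq hv hyfix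
    intro i
    rw [← F.rb_smul]
    exact h1 j (F.rb y) (pel_map hy F.rb) (fun δ => propext (h3 δ).symm) i
  · intro a b h e
    exact h2 _ _ (ncard_eq (F.sv_eq hv e))

/-- `L` acts nontrivially on the first component -/
theorem not_trivial [Nontrivial Δ] [Nontrivial F.V]
    (hirr : ∀ Z : AddSubgroup W, (∀ g ∈ L, ∀ w ∈ Z, g • w ∈ Z) → Z = ⊥ ∨ Z = ⊤)
    (h : ∀ x : F.X, (x : H) ∈ L → ∀ v : F.V, x • v = v) : False := by
  classical
  obtain ⟨v, hv⟩ := exists_ne (0 : F.V)
  let w : W := F.comb (fun _ => v)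
  have hw : ∀ g ∈ L, g • w = w := by
    intro g hg
    apply F.eq_of_cp
    intro j
    have h1 := F.lam_smul_cp g (g⁻¹ • j) w
    rw [smul_inv_smul] at h1
    rw [← h1, F.cp_comb, F.cp_comb]
    exact h _ (F.lam_memL hg _) v
  have hw0 : w ≠ 0 := by
    intro h1
    apply hv
    have h2 := F.cp_comb (fun _ => v) F.o
    rw [← h2]
    show F.cp F.o w = 0
    rw [h1, F.cp_zero]
  have hinv : ∀ g ∈ L, ∀ u ∈ AddSubgroup.zmultiples w, g • u ∈ AddSubgroup.zmultiples w := by
    rintro g hg u ⟨n, rfl⟩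
    refine ⟨n, ?_⟩
    show n • w = g • (n • w)
    rw [← DistribSMul.toAddMonoidHom_apply W g (n • w), map_zsmul, DistribSMul.toAddMonoidHom_apply, hw g hg]
  have htop : AddSubgroup.zmultiples w = ⊤ := by
    rcases hirr _ hinv with h1 | h1
    · exfalso
      apply hw0
      rwa [AddSubgroup.zmultiples_eq_bot] at h1
    · exact h1
  have hall : ∀ g ∈ L, ∀ u : W, g • u = u := by
    intro g hg u
    obtain ⟨n, rfl⟩ : u ∈ AddSubgroup.zmultiples w := by rw [htop]; trivial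
    show g • (n • w) = n • w
    rw [← DistribSMul.toAddMonoidHom_apply W g (n • w), map_zsmul, DistribSMul.toAddMonoidHom_apply, hw g hg]
  obtain ⟨i, hi⟩ := exists_ne F.o
  let u : W := F.comb (fun j => if j = F.o then v else 0)
  have h1 := F.lam_smul_cp (F.t i) F.o u
  rw [hall _ (F.htL i), F.ht, F.cp_comb, F.cp_comb, if_pos rfl, if_neg hi, smul_eq_zero_iff_eq] at h1
  exact hv h1

end Fr

/-! ### existence of a frame -/

section

variable {H W : Type u} [Group H] [Finite H] [AddCommGroup W] [Nontrivial W] [DistribMulAction H W] {L : Subgroup H}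

theorem exists_frame (hLn : L.Normal)
    (hirr : ∀ Z : AddSubgroup W, (∀ g ∈ L, ∀ w ∈ Z, g • w ∈ Z) → Z = ⊥ ∨ Z = ⊤) (hI : Imp H W) :
    ∃ (Δ : Type u) (_ : Fintype Δ) (_ : MulAction H Δ) (_ : Nontrivial Δ), MulAction.IsPreprimitive H Δ ∧
      Nat.card Δ ∣ Nat.card L ∧ Nonempty (Fr H W Δ L) := by
  classical
  obtain ⟨X, hX, hS⟩ := Cfsg.Agent.H158.Cls7.exists_coatom_sys (L := H) (U := W)
    (fun Z hZ => hirr Z (fun g _ w hw => hZ g w hw)) hI
  let inst : Fintype (H ⧸ X) := Fintype.ofFinite _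
  obtain ⟨S⟩ := hS inst
  have hnt : Nontrivial (H ⧸ X) := by
    rw [← not_subsingleton_iff_nontrivial]
    intro h
    apply hX.1
    rw [eq_top_iff]
    intro x _
    have h1 : ((1 : H) : H ⧸ X) = ((x : H) : H ⧸ X) := Subsingleton.elim _ _
    rw [QuotientGroup.eq] at h1
    simpa using h1
  have hprim : MulAction.IsPreprimitive H (H ⧸ X) := by
    rw [← MulAction.isCoatom_stabilizer_iff_preprimitive H (((1 : H) : H ⧸ X)), MulAction.stabilizer_quotient]
    exact hX
  have hfix : MulAction.fixedPoints L (H ⧸ X) ≠ .univ := by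
    intro h
    have h1 : ∀ g ∈ L, ∀ i : H ⧸ X, g • i = i := by
      intro g hg i
      have h2 : i ∈ MulAction.fixedPoints L (H ⧸ X) := by rw [h]; trivial
      exact h2 ⟨g, hg⟩
    obtain ⟨i, j, hij⟩ := hnt.exists_pair_ne
    obtain ⟨u, hu⟩ := S.ne_zero i
    obtain ⟨u', hu'⟩ := S.ne_zero j
    rcases hirr (S.π i).range (by
      rintro g hg w ⟨w', rfl⟩
      rw [S.eqv, h1 g hg]
      exact ⟨_, rfl⟩) with h2 | h2
    · apply hu
      have h3 : S.π i u ∈ (S.π i).range := ⟨u, rfl⟩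
      rwa [h2, AddSubgroup.mem_bot] at h3
    · have h3 : S.π j u' ∈ (S.π i).range := by rw [h2]; trivial
      obtain ⟨w, hw⟩ := h3
      apply hu'
      rw [← S.proj j, ← hw]
      exact S.orth j i w (Ne.symm hij)
  have htr : MulAction.IsPretransitive L (H ⧸ X) := MulAction.IsQuasiPreprimitive.isPretransitive_of_normal hfix
  have h4 : ∀ i : H ⧸ X, ∃ g : L, g • ((1 : H) : H ⧸ X) = i := fun i => MulAction.exists_smul_eq L _ _
  choose t ht using h4
  refine ⟨H ⧸ X, inst, inferInstance, hnt, hprim, ?_, ⟨{ S with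
    o := ((1 : H) : H ⧸ X)
    t := fun i => t i
    ht := ht
    htL := fun i => (t i).2 }⟩⟩
  rw [← MulAction.index_stabilizer_of_transitive L (((1 : H) : H ⧸ X))]
  exact Subgroup.index_dvd_card _

end

/-- **`Core` from `CorePrim`, `Col` and `ColB`** -/
theorem core_of {p t m k : ℕ} (hp : p.Prime) (hm : m ≤ t) (h : CorePrim.{u} p t m k) (hc : Col.{u} p k)
    (hb : m = 0 ∨ ColB.{u} p (t - m) k) (hk : ∀ n, 2 ≤ n → ¬ p ∣ n → k ≤ n + 1) : Core.{u} p t m k := by
  have key : ∀ N : ℕ, ∀ (H W : Type u) [Group H] [Finite H] [Group.IsSolvable H] [AddCommGroup W] [Finite W]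
      [Nontrivial W] [DistribMulAction H W] (L : Subgroup H) (r : ℕ), Nat.card W ≤ N → LP p L → r.Prime → r ≠ p →
      (∀ w : W, r • w = 0) → (∀ h : H, (∀ w : W, h • w = w) → h = 1) →
      (∀ X : AddSubgroup W, (∀ g ∈ L, ∀ w ∈ X, g • w ∈ X) → X = ⊥ ∨ X = ⊤) →
      FH m L ∨ Orbs H k (Gd (V := W) p t L) := by
    intro N
    induction N with
    | zero =>
      intro H W _ _ _ _ _ _ _ L r hN
      have := Nat.card_pos (α := W)
      omega
    | succ N ih =>
      intro H W _ _ _ _ _ _ _ L r hN hL hr hrp hrW hf hirr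
      by_cases hI : Imp H W
      swap
      · exact h H W L r hL hr hrp hrW hf hirr hI
      right
      have hLn := hL.normal
      obtain ⟨Δ, _, _, hnt, hprim, hcard, ⟨F⟩⟩ := exists_frame hLn hirr hI
      have hpΔ : ¬ p ∣ Nat.card Δ := fun h1 => hL.cop (h1.trans hcard)
      have hn2 : 2 ≤ Nat.card Δ := Finite.one_lt_card
      obtain ⟨i, hi⟩ := exists_ne F.o
      have hVtop : F.V ≠ ⊤ := by
        intro h1
        obtain ⟨u, hu⟩ := F.toSys.ne_zero i
        have h2 : F.π i u ∈ F.V := by rw [h1]; trivial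
        rw [F.mem_V_iff] at h2
        apply hu
        rw [← F.proj i, ← h2]
        exact F.orth i F.o _ hi
      have hVbot : F.V ≠ ⊥ := by
        intro h1
        obtain ⟨u, hu⟩ := F.toSys.ne_zero F.o
        apply hu
        have h2 : F.π F.o u ∈ F.V := ⟨u, rfl⟩
        rwa [h1, AddSubgroup.mem_bot] at h2
      have hVnt : Nontrivial F.V := (AddSubgroup.nontrivial_iff_ne_bot _).2 hVbot
      have hVcard : Nat.card F.V < Nat.card W := by
        apply lt_of_le_of_ne (AddSubgroup.card_le_card_addGroup _)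
        intro h1
        exact hVtop (AddSubgroup.eq_top_of_card_eq _ h1)
      have hsol : Group.IsSolvable F.Hh := Group.isSolvable_of_surjective F.rs_surj
      have hL1 : LP p F.L1 := lp_map (lp_subgroupOf hL F.X) F.rs F.rs_surj
      have hIH := ih F.Hh F.V F.L1 r (by omega) hL1 hr hrp (fun v => Subtype.ext (hrW v))
        (fun g hg => Subtype.ext (Equiv.ext hg)) (fun Z hZ => F.irr hirr Z (fun g hg v hv => by
          rw [← F.rs_smul]
          exact hZ _ ⟨g, hg, rfl⟩ v hv))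
      rcases hIH with h1 | h1
      swap
      · exact F.orbs_a hp hL hf (hc H Δ hprim hpΔ) h1
      have hfix : ∀ y : H, PEl p y → (∀ i : Δ, y • i = i) → FH t (⁅L, Subgroup.zpowers y⁆ : Subgroup H) :=
        fun y hy hyi => FH.mono hm (F.fh_fix' hp hL hf hy hyi h1)
      by_cases hm0 : m = 0
      · exfalso
        subst hm0
        have h2 : Subsingleton F.L1 := h1
        apply F.not_trivial hirr
        intro x hx v
        rw [← F.rs_smul]
        have h3 : F.rs x = 1 := congrArg Subtype.val (Subsingleton.elim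
          (⟨F.rs x, ⟨x, hx, rfl⟩⟩ : F.L1) 1)
        rw [h3, one_smul]
      have hb' : ColB.{u} p (t - m) k := hb.resolve_left hm0
      have hprim' : MulAction.IsPreprimitive F.Hb Δ :=
        MulAction.IsPreprimitive.of_surjective (φ := F.rb) (f := { toFun := id, map_smul' := fun g x => rfl })
          Function.surjective_id
      by_cases hy : ∃ y : F.Hb, PEl p y ∧ ¬ FH (t - m) (⁅L.map F.rb, Subgroup.zpowers y⁆ : Subgroup F.Hb)
      · have hsol' : Group.IsSolvable F.Hb := Group.isSolvable_of_surjective F.rb_surj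
        exact F.orbs_b2 hfix (hb' F.Hb Δ (L.map F.rb) hprim' (lp_map hL F.rb F.rb_surj) hpΔ hy)
      · push Not at hy
        apply F.orbs_b1 (hk _ hn2 hpΔ)
        intro y hyp
        have h2 := F.fh_ext' hL hf h1 (hy (F.rb y) (pel_map hyp F.rb))
        rwa [Nat.add_sub_cancel' hm] at h2
  intro H W _ _ _ _ _ _ _ L r hL hr hrp hrW hf hirr
  exact key _ H W L r le_rfl hL hr hrp hrW hf hirr

theorem core_five {p : ℕ} (hp : p.Prime) (h : CorePrim.{u} p 1 0 2) (hc : Col.{u} p 2) : Core.{u} p 1 0 2 :=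
  core_of hp (by omega) h hc (Or.inl rfl) (fun n hn _ => by omega)

theorem core_three (h : CorePrim.{u} 3 4 2 3) (hc : Col.{u} 3 3) (hb : ColB.{u} 3 2 3) : Core.{u} 3 4 2 3 :=
  core_of Nat.prime_three (by omega) h hc (Or.inr hb) (fun n hn _ => by omega)

theorem core_two (h : CorePrim.{u} 2 3 2 4) (hc : Col.{u} 2 4) (hb : ColB.{u} 2 1 4) : Core.{u} 2 3 2 4 :=
  core_of Nat.prime_two (by omega) h hc (Or.inr hb) (fun n hn h2 => by
    have : n ≠ 2 := fun h => h2 (by rw [h])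
    omega)

end Cfsg.Agent.H757.RC
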